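import Cfsg.Agent.TwoF.DC.TC.Sz
import Cfsg.Agent.H452.RG.ReeDat
import Cfsg.Agent.H71.ReeOut

/-!
# TwoF, the small Ree groups in characteristic three: the Sylow subgroup (helper78)
-/

set_option autoImplicit false
set_option linter.unusedSectionVars false

namespace Cfsg.Agent.TwoF.DC.TF.G2

open Cfsg Cfsg.Agent.TwoF.Gen Subgroup Cfsg.Agent.LieRecognition Cfsg.Agent.LieRecognition.ReeAbs
  Cfsg.Agent.LieRecognition.ReeSylowThree Cfsg.Agent.LieRecognition.ReeSplit Cfsg.Agent.H452.RG.ReeD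

/-- a skew form on a field of order `3 ^ (2 m + 1)` is degenerate -/
theorem exists_rad {K : Type*} [Field K] [Fintype K] {m : ℕ} (hK : Fintype.card K = 3 ^ (2 * m + 1))
    (F : K → K → ZMod 3) (h1 : ∀ a b c, F (a + b) c = F a c + F b c) (h2 : ∀ a b, F a b = -F b a) :
    ∃ a, a ≠ 0 ∧ ∀ b, F a b = 0 := by
  classical
  have := charP_three hK
  let _ : Algebra (ZMod 3) K := ZMod.algebra K 3
  have h3 : ∀ a b c, F a (b + c) = F a b + F a c := fun a b c => by rw [h2, h1, h2 a b, h2 a c]; ring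
  let B : LinearMap.BilinForm (ZMod 3) K :=
    (AddMonoidHom.mk' (fun a => (AddMonoidHom.mk' (F a) (h3 a)).toZModLinearMap 3)
      fun a b => LinearMap.ext fun c => h1 a b c).toZModLinearMap 3
  have hn : Module.finrank (ZMod 3) K = 2 * m + 1 := by
    have h4 := Module.card_eq_pow_finrank (K := ZMod 3) (V := K)
    rw [hK, ZMod.card] at h4
    exact (Nat.pow_right_injective (by norm_num) h4).symm
  let b := Module.finBasis (ZMod 3) K
  by_contra h
  push Not at h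
  have h4 : B.Nondegenerate := ⟨fun a ha => by
      by_contra e
      obtain ⟨c, hc⟩ := h a e
      exact hc (ha c), fun a ha => by
      by_contra e
      obtain ⟨c, hc⟩ := h a e
      exact hc (by rw [h2]; exact neg_eq_zero.2 (ha c))⟩
  have h6 : (LinearMap.BilinForm.toMatrix b B).transpose = -LinearMap.BilinForm.toMatrix b B := by
    ext i j
    rw [Matrix.transpose_apply, Matrix.neg_apply, LinearMap.BilinForm.toMatrix_apply,
      LinearMap.BilinForm.toMatrix_apply]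
    exact h2 _ _
  have h7 := Matrix.det_transpose (LinearMap.BilinForm.toMatrix b B)
  rw [h6, Matrix.det_neg, Fintype.card_fin, Odd.neg_one_pow (hn ▸ odd_two_mul_add_one m)] at h7
  have h8 : ∀ x : ZMod 3, -1 * x = x → x = 0 := by decide
  exact (LinearMap.BilinForm.nondegenerate_iff_det_ne_zero b).1 h4 (h8 _ h7)

theorem four_mul_lt (e : ℕ) : 4 * e < 3 ^ e + 2 := by
  induction e with
  | zero => norm_num
  | succ e ih =>
    rcases e with _ | e
    · norm_num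
    · have : 3 ≤ 3 ^ (e + 1) := Nat.le_self_pow (by omega) 3
      rw [pow_succ]
      omega

section Cub

variable {k : Type*} [Field k] {Y : Type*} [Group Y] {V : Type*} [AddCommGroup V] [Module k V]
  {ρ : Representation k Y V}

theorem mul_kill {a b : Y} {N : Module.End k V} (ha : (ρ a - 1) * N = 0) (hb : (ρ b - 1) * N = 0) :
    (ρ (a * b) - 1) * N = 0 := by
  have e : ρ (a * b) - 1 = (ρ a - 1) + ρ a * (ρ b - 1) := by rw [map_mul, mul_sub, mul_one]; abel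
  rw [e, add_mul, mul_assoc, ha, hb, mul_zero, add_zero]

theorem sub_one_commute {a b : Y} (h : a * b = b * a) : (ρ a - 1) * (ρ b - 1) = (ρ b - 1) * (ρ a - 1) :=
  LinearMap.ext (sub_one_comm h)

/-- polarisation -/
theorem cub_of_sq (h2 : (2 : k) ≠ 0) {W : Subgroup Y} (Z : Set Y) (hc : ∀ a ∈ W, ∀ b ∈ W, a * b = b * a)
    (hs : ∀ a ∈ W, a ∉ Z → ∀ c ∈ W, (ρ c - 1) * ((ρ a - 1) * (ρ a - 1)) = 0)
    (hd : ∀ a ∈ W, ∀ b ∈ W, ∃ a₁ ∈ W, ∃ a₂ ∈ W, a = a₁ * a₂ ∧ a₁ ∉ Z ∧ a₂ ∉ Z ∧ a₁ * b ∉ Z ∧ a₂ * b ∉ Z) :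
    Cub ρ W := by
  have s1 : ∀ a ∈ W, ∀ b ∈ W, ∀ c ∈ W, a ∉ Z → b ∉ Z → a * b ∉ Z → (ρ a - 1) * ((ρ b - 1) * (ρ c - 1)) = 0 := by
    intro a ha b hb c hcW h3 h4 h5
    have e0 := hs _ (mul_mem ha hb) h5 c hcW
    have e1 := hs a ha h3 c hcW
    have e2 := hs b hb h4 c hcW
    have e : ρ (a * b) - 1 = (ρ a - 1) + (ρ b - 1) + (ρ a - 1) * (ρ b - 1) := by
      rw [map_mul]; noncomm_ring
    have yx := sub_one_commute (ρ := ρ) (hc b hb a ha)
    have zx := sub_one_commute (ρ := ρ) (hc c hcW a ha)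
    have zy := sub_one_commute (ρ := ρ) (hc c hcW b hb)
    rw [e] at e0
    generalize ρ a - 1 = x at *
    generalize ρ b - 1 = y at *
    generalize ρ c - 1 = z at *
    have yx' : ∀ t, y * (x * t) = x * (y * t) := fun t => by rw [← mul_assoc, yx, mul_assoc]
    have zx' : ∀ t, z * (x * t) = x * (z * t) := fun t => by rw [← mul_assoc, zx, mul_assoc]
    have zy' : ∀ t, z * (y * t) = y * (z * t) := fun t => by rw [← mul_assoc, zy, mul_assoc]
    simp only [zx', zy', zx, zy] at e1 e2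
    have e3 : x * (x * (y * z)) = 0 := by rw [← yx', ← yx', e1, mul_zero]
    simp only [mul_add, add_mul, mul_assoc, yx, yx', zx, zx', zy, zy', e1, e2, e3, mul_zero, add_zero, zero_add] at e0
    rw [← two_smul k] at e0
    exact (smul_eq_zero.1 e0).resolve_left h2
  have s2 : ∀ a ∈ W, ∀ b ∈ W, ∀ c ∈ W, b ∉ Z → (ρ a - 1) * ((ρ b - 1) * (ρ c - 1)) = 0 := by
    intro a ha b hb c hcW h4
    obtain ⟨a₁, h5, a₂, h6, rfl, h7, h8, h9, h10⟩ := hd a ha b hb
    exact mul_kill (s1 _ h5 b hb c hcW h7 h4 h9) (s1 _ h6 b hb c hcW h8 h4 h10)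
  have s3 : ∀ a ∈ W, ∀ b ∈ W, ∀ c ∈ W, b ∉ Z → (ρ b - 1) * ((ρ a - 1) * (ρ c - 1)) = 0 := by
    intro a ha b hb c hcW h4
    rw [← mul_assoc, sub_one_commute (hc b hb a ha), mul_assoc]
    exact s2 a ha b hb c hcW h4
  intro b hb a ha c hcW
  obtain ⟨b₁, h5, b₂, h6, rfl, h7, h8, -⟩ := hd b hb 1 (one_mem _)
  rw [mul_assoc]
  exact mul_kill (s3 a ha _ h5 c hcW h7) (s3 a ha _ h6 c hcW h8)

end Cub

variable {K : Type*} [Field K] [Fintype K] {G : Type*} [Group G] [Finite G] {m : ℕ}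
  {U : K → K → K → G} {h : Kˣ → G} {n : G}

theorem w_mul (D : Data m U h n) (u v u' v' : K) : U 0 u v * U 0 u' v' = U 0 (u + u') (v + v') := by
  rw [D.U_mul]
  simp only [zero_pow_three_pow]
  congr 1 <;> ring

theorem w_inv (D : Data m U h n) (u v : K) : (U 0 u v)⁻¹ = U 0 (-u) (-v) := by
  rw [inv_eq_iff_mul_eq_one, w_mul D, add_neg_cancel, add_neg_cancel, D.U_zero]

/-- the elements of order dividing three of `U` -/
def wSub (D : Data m U h n) : Subgroup G where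
  carrier := {g | ∃ u v, g = U 0 u v}
  mul_mem' := by
    rintro _ _ ⟨u, v, rfl⟩ ⟨u', v', rfl⟩
    exact ⟨_, _, w_mul D _ _ _ _⟩
  one_mem' := ⟨0, 0, D.U_zero.symm⟩
  inv_mem' := by
    rintro _ ⟨u, v, rfl⟩
    exact ⟨_, _, w_inv D _ _⟩

theorem mem_wSub (D : Data m U h n) (hK : Fintype.card K = 3 ^ (2 * m + 1)) {g : G} :
    g ∈ wSub D ↔ g ∈ uSub D ∧ g ^ 3 = 1 := by
  constructor
  · rintro ⟨u, v, rfl⟩
    refine ⟨⟨_, _, _, rfl⟩, ?_⟩
    rw [U_cube D hK]
    simp [D.U_zero]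
  · rintro ⟨⟨t, u, v, rfl⟩, h3⟩
    rw [U_cube D hK, ← D.U_zero] at h3
    have h4 := (U_injective D h3).2.2
    rw [neg_eq_zero, ← pow_add] at h4
    rw [eq_zero_of_pow_eq_zero h4]
    exact ⟨u, v, rfl⟩

theorem elemAb_wSub (D : Data m U h n) (hK : Fintype.card K = 3 ^ (2 * m + 1)) : IsElementaryAbelian 3 (wSub D) := by
  refine elemAb_of ?_ fun a ha => ((mem_wSub D hK).1 ha).2
  rintro _ ⟨u, v, rfl⟩ _ ⟨u', v', rfl⟩
  rw [w_mul D, w_mul D, add_comm u, add_comm v]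

theorem card_wSub (D : Data m U h n) : Nat.card (wSub D) = Fintype.card K ^ 2 := by
  rw [← Nat.card_eq_fintype_card, pow_two, ← Nat.card_prod]
  refine (Nat.card_congr (Equiv.ofBijective (fun x : K × K => (⟨U 0 x.1 x.2, _, _, rfl⟩ : wSub D)) ⟨?_, ?_⟩)).symm
  · intro x y e
    exact Prod.ext (U_injective D (congrArg Subtype.val e)).2.1 (U_injective D (congrArg Subtype.val e)).2.2
  · rintro ⟨_, u, v, rfl⟩
    exact ⟨(u, v), rfl⟩

theorem zSub_le_wSub (D : Data m U h n) : zSub D ≤ wSub D := by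
  rintro _ ⟨v, rfl⟩
  exact ⟨0, v, rfl⟩

theorem w_mem_zSub (D : Data m U h n) {u v : K} : U 0 u v ∈ zSub D ↔ u = 0 :=
  ⟨fun ⟨_, e⟩ => (U_injective D e).2.1, fun e => ⟨v, by rw [e]⟩⟩

theorem bSub_le_normalizer (D : Data m U h n) {E : Subgroup G} (hE : ∀ g ∈ bSub D, ∀ x ∈ E, g * x * g⁻¹ ∈ E) :
    bSub D ≤ normalizer (E : Set G) := fun g hg => mem_normalizer_iff.2 fun x => ⟨hE g hg x, fun hx => by
  have := hE _ (inv_mem hg) _ hx
  rwa [show g⁻¹ * (g * x * g⁻¹) * g⁻¹⁻¹ = x by group] at this⟩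

theorem bSub_le_normalizer_wSub (D : Data m U h n) (hK : Fintype.card K = 3 ^ (2 * m + 1)) :
    bSub D ≤ normalizer (wSub D : Set G) := bSub_le_normalizer D fun g hg x hx => by
  rw [mem_wSub D hK] at hx ⊢
  exact ⟨conj_mem_uSub D hg hx.1, by rw [conj_pow, hx.2, mul_one, mul_inv_cancel]⟩

/-- elementary abelian subgroups are conjugate into `W` -/
theorem exists_conj_le (D : Data m U h n) (hK : Fintype.card K = 3 ^ (2 * m + 1)) {A : Subgroup G}
    (hA : ∀ a ∈ A, a ^ 3 = 1) : ∃ g : G, ∀ a ∈ A, g * a * g⁻¹ ∈ wSub D := by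
  obtain ⟨g, hg⟩ := three_le D hK (R := A) fun a => ⟨1, Subtype.ext (by rw [pow_one]; exact hA a a.2)⟩
  refine ⟨g⁻¹, fun a ha => (mem_wSub D hK).2 ⟨by rw [inv_inv]; exact hg a ha, ?_⟩⟩
  rw [conj_pow, hA a ha, mul_one, mul_inv_cancel]

theorem h_conj (D : Data m U h n) (a : Kˣ) (u v : K) : h a * U 0 u v * (h a)⁻¹ =
    U 0 ((a : K) ^ (3 ^ (m + 1) + 3) * u) ((a : K) ^ (2 * 3 ^ (m + 1) + 3) * v) := by
  rw [D.h_U, mul_zero, mul_inv_cancel_right]

theorem b_conj (D : Data m U h n) (t u v : K) (a : Kˣ) (w : K) : U t u v * h a * U 0 0 w * (U t u v * h a)⁻¹ =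
    U 0 0 ((a : K) ^ (2 * 3 ^ (m + 1) + 3) * w) := by
  have h1 := D.h_U a 0 0 w
  rw [mul_zero, mul_zero] at h1
  rw [mul_inv_eq_iff_eq_mul, mul_assoc, h1, ← mul_assoc, z_comm D, mul_assoc]

/-- `B` with inversion is transitive on `W \ Z` -/
theorem trans_w (D : Data m U h n) (hK : Fintype.card K = 3 ^ (2 * m + 1)) (P : G → Prop)
    (h1 : ∀ g ∈ bSub D, ∀ x, P x → P (g * x * g⁻¹)) (h2 : ∀ x, P x → P x⁻¹) {u v u' v' : K} (hu : u ≠ 0) (hu' : u' ≠ 0)
    (hP : P (U 0 u v)) : P (U 0 u' v') := by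
  have s1 : ∀ u v v' : K, u ≠ 0 → P (U 0 u v) → P (U 0 u v') := fun u v v' hu hP => by
    have e : U ((v' - v) / u) 0 0 * U 0 u v * (U ((v' - v) / u) 0 0)⁻¹ = U 0 u v' := by
      rw [mul_inv_eq_iff_eq_mul, D.U_mul, D.U_mul]
      simp only [zero_pow_three_pow]
      congr 1
      · ring
      · ring
      · field_simp
        ring
    exact e ▸ h1 _ (uSub_le_bSub D ⟨_, _, _, rfl⟩) _ hP
  have s2 : ∀ (b : Kˣ) (u : K), P (U 0 u 0) → P (U 0 ((b : K) * b * u) 0) := fun b u hP => by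
    have e := h_conj D (f m b) u 0
    rw [mul_zero, ← Units.val_pow_eq_pow_val, f_pow hK, pow_two, Units.val_mul] at e
    exact e ▸ h1 _ (h_mem_bSub D _) _ hP
  refine s1 _ 0 _ hu' ?_
  obtain ⟨b, hb | hb⟩ := exists_sq_or_neg hK (Units.mk0 u' hu' * (Units.mk0 u hu)⁻¹)
  · have h3 : u' = (b : K) * b * u := by
      have h4 := congrArg (fun x : Kˣ => (x : K)) hb
      simp only [Units.val_mul, Units.val_mk0, Units.val_inv_eq_inv_val] at h4
      rw [← h4, mul_assoc, inv_mul_cancel₀ hu, mul_one]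
    exact h3 ▸ s2 b u (s1 _ _ 0 hu hP)
  · have h3 : u' = -((b : K) * b * u) := by
      have h4 := congrArg (fun x : Kˣ => (x : K)) hb
      simp only [Units.val_mul, Units.val_mk0, Units.val_inv_eq_inv_val, Units.val_neg] at h4
      rw [← neg_mul, ← h4, mul_assoc, inv_mul_cancel₀ hu, mul_one]
    rw [h3, D.U_neg]
    exact h2 _ (s2 b u (s1 _ _ 0 hu hP))

/-- the subgroups of `W` normalised by `B` -/
theorem cases_of_normal (D : Data m U h n) (hK : Fintype.card K = 3 ^ (2 * m + 1)) {E : Subgroup G} (h1 : E ≤ wSub D)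
    (h2 : E ≠ ⊥) (h3 : bSub D ≤ normalizer (E : Set G)) : E = zSub D ∨ E = wSub D := by
  have h4 : ∀ g ∈ bSub D, ∀ x, x ∈ E → g * x * g⁻¹ ∈ E := fun g hg x hx => (mem_normalizer_iff.1 (h3 hg) x).1 hx
  by_cases hZ : E ≤ zSub D
  · refine Or.inl (le_antisymm hZ ?_)
    obtain ⟨⟨e, he⟩, he1⟩ := ne_bot_iff_exists_ne_one.1 h2
    obtain ⟨w, rfl⟩ := hZ he
    have hw : w ≠ 0 := fun e => he1 (Subtype.ext (show U 0 0 w = 1 by rw [e, D.U_zero]))
    rintro _ ⟨v, rfl⟩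
    by_cases hv : v = 0
    · rw [hv, D.U_zero]
      exact one_mem _
    have hinj : Function.Injective (powMonoidHom (2 * 3 ^ (m + 1) + 3) : Kˣ →* Kˣ) :=
      (injective_iff_map_eq_one _).2 fun a ha => ReeTorus.eq_one_of_pow_two_mul_add_three hK a ha
    obtain ⟨a, ha⟩ := Finite.surjective_of_injective hinj (Units.mk0 v hv * (Units.mk0 w hw)⁻¹)
    have ha' : (a : K) ^ (2 * 3 ^ (m + 1) + 3) * w = v := by
      have h5 := congrArg (fun x : Kˣ => (x : K)) ha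
      simp only [powMonoidHom_apply, Units.val_pow_eq_pow_val, Units.val_mul, Units.val_mk0,
        Units.val_inv_eq_inv_val] at h5
      rw [h5, mul_assoc, inv_mul_cancel₀ hw, mul_one]
    have h5 := h4 _ (h_mem_bSub D a) _ he
    rwa [h_conj D, mul_zero, ha'] at h5
  · refine Or.inr (le_antisymm h1 ?_)
    obtain ⟨e, he, he1⟩ := SetLike.not_le_iff_exists.1 hZ
    obtain ⟨u, v, rfl⟩ := h1 he
    have h5 : ∀ u' v', u' ≠ 0 → U 0 u' v' ∈ E := fun u' v' hu' =>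
      trans_w D hK (· ∈ E) h4 (fun _ hx => inv_mem hx) (fun e => he1 ((w_mem_zSub D).2 e)) hu' he
    rintro _ ⟨u', v', rfl⟩
    by_cases hu' : u' = 0
    · have h6 := mul_mem (h5 1 v' one_ne_zero) (h5 (-1) 0 (neg_ne_zero.2 one_ne_zero))
      rw [w_mul D, add_neg_cancel, add_zero] at h6
      rwa [hu']
    · exact h5 _ _ hu'

/-- an element of order three that commutes with an involution is conjugate into `W \ Z` -/
theorem exists_conj_w (D : Data m U h n) (hK : Fintype.card K = 3 ^ (2 * m + 1)) {y j : G} (hy : orderOf y = 3)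
    (hj : orderOf j = 2) (hc : j * y = y * j) : ∃ g u v, u ≠ 0 ∧ g * y * g⁻¹ = U 0 u v := by
  obtain ⟨g, hg⟩ := exists_conj_le D hK (A := zpowers y) (elemAb_zpowers (hy ▸ pow_orderOf_eq_one y)).2
  obtain ⟨u, v, e⟩ := hg y (mem_zpowers y)
  refine ⟨g, u, v, fun hu => ?_, e⟩
  subst hu
  have h1 : U 0 0 v ≠ 1 := fun e' => by
    rw [e', conj_eq_one_iff] at e
    rw [e, orderOf_one] at hy
    omega
  have h2 : g * j * g⁻¹ * U 0 0 v = U 0 0 v * (g * j * g⁻¹) := by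
    rw [← e]
    calc _ = g * (j * y) * g⁻¹ := by group
      _ = _ := by rw [hc]; group
  rcases mem_or_of_commute D hK ⟨_, _, _, rfl⟩ h1 h2 with h3 | ⟨_, ⟨t', u', v', rfl⟩, h3⟩
  · have h4 := pow_nine D hK h3
    rw [conj_pow, conj_eq_one_iff, ← orderOf_dvd_iff_pow_eq_one, hj] at h4
    omega
  · rw [h3, ← mul_inv_eq_iff_eq_mul, b_conj D] at h2
    have h4 := eq_one_of_mul_eq' hK (U_injective D h2).2.2 fun e' => h1 (by rw [e', D.U_zero])
    exact neg_one_ne_one hK (by simpa using congrArg Units.val h4)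

/-- the fixed points in `Z` of an outer automorphism -/
theorem card_fix_sq (D : Data m U h n) {Φ : (K ≃+* K) → MulAut G} (F : H71.ReeOut.Fld D Φ) {g : G} {τ : K ≃+* K}
    (hτ : τ ≠ 1) {E : Subgroup G} (hE : E ≤ zSub D) (hf : ∀ e ∈ E, g * Φ τ e * g⁻¹ = e) :
    Nat.card E ^ 2 ≤ Fintype.card K := by
  by_cases h0 : E = ⊥
  · rw [h0, card_bot, one_pow]
    exact Fintype.card_pos
  obtain ⟨⟨e, he⟩, he1⟩ := ne_bot_iff_exists_ne_one.1 h0
  obtain ⟨t, u, v, d, rfl⟩ : g ∈ bSub D := by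
    obtain ⟨w, rfl⟩ := hE he
    refine mem_bSub_of_conj D (x := U 0 0 w) (y := Φ τ (U 0 0 w)) ⟨_, _, _, rfl⟩ ⟨_, _, _, F.onU τ _ _ _⟩
      (fun e => he1 (Subtype.ext e)) ?_
    exact (mul_inv_eq_iff_eq_mul.1 (hf _ he)).symm
  obtain ⟨c, hc⟩ : ∃ c, τ c ≠ c := by
    by_contra e
    push Not at e
    exact hτ (RingEquiv.ext e)
  choose co hco using fun e : E => hE e.2
  have h1 : ∀ e : E, (d : K) ^ (2 * 3 ^ (m + 1) + 3) * τ (co e) = co e := fun e => by
    have h2 := hf e e.2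
    rw [hco e, F.onU, map_zero, b_conj D] at h2
    exact (U_injective D h2).2.2
  have h2 : Function.Injective co := fun a b e => Subtype.ext (by rw [hco a, hco b, e])
  rw [pow_two, ← Nat.card_prod, ← Nat.card_eq_fintype_card]
  refine Nat.card_le_card_of_injective (fun x : E × E => co x.1 + co x.2 * c) fun x y e => ?_
  have h3 := congrArg (fun s => (d : K) ^ (2 * 3 ^ (m + 1) + 3) * τ s) e
  simp only [map_add, map_mul, mul_add, ← mul_assoc, h1] at h3
  have h4 : co x.2 = co y.2 := by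
    have h5 : (co x.2 - co y.2) * (τ c - c) = 0 := by
      have e' : co x.1 + co x.2 * c = co y.1 + co y.2 * c := e
      linear_combination h3 - e'
    exact sub_eq_zero.1 ((mul_eq_zero.1 h5).resolve_right (sub_ne_zero.2 hc))
  rw [h4] at h3
  exact Prod.ext (h2 (add_right_cancel h3)) (h2 h4)

section Rep

variable {V : Type*} [AddCommGroup V] [Module (ZMod 3) V] [Finite V] {ρ : Representation (ZMod 3) G V}

theorem cod_w (D : Data m U h n) (hK : Fintype.card K = 3 ^ (2 * m + 1)) {c : ℕ} {y j : G} (hy : orderOf y = 3)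
    (hj : orderOf j = 2) (hc : j * y = y * j) (h1 : c ≤ cod ρ (zpowers y)) {w : G} (hw : w ∈ wSub D)
    (hz : w ∉ zSub D) : c ≤ cod ρ (zpowers w) := by
  obtain ⟨g, u, v, hu, e⟩ := exists_conj_w D hK hy hj hc
  obtain ⟨u', v', rfl⟩ := hw
  exact trans_w D hK (fun x => c ≤ cod ρ (zpowers x)) (fun g _ x hx => by rwa [cod_zpowers_conj])
    (fun x hx => by rwa [zpowers_inv]) hu (fun e => hz ((w_mem_zSub D).2 e)) (by rwa [← e, cod_zpowers_conj])

theorem cub_wSub (D : Data m U h n) (hm : 1 ≤ m) (hK : Fintype.card K = 3 ^ (2 * m + 1))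
    (h1 : ∀ w ∈ wSub D, w ∉ zSub D → cod ρ (wSub D) ≤ cod ρ (zpowers w)) : Cub ρ (wSub D) := by
  classical
  refine cub_of_sq (by decide) (zSub D) (fun a ha b hb => elemAb_comm (elemAb_wSub D hK) ha hb)
    (fun a ha hz c hc => ?_) ?_
  · have h2 : fx ρ (wSub D) = fx ρ (zpowers a) := by
      have h3 := h1 a ha hz
      have h4 := cod_add (ρ := ρ) (wSub D)
      have h5 := cod_add (ρ := ρ) (zpowers a)
      exact Submodule.eq_of_le_of_finrank_le (fx_anti ((zpowers_le).2 ha)) (by omega)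
    have h3 := sub_one_pow (ρ := ρ) (p := 3) (n := 1) (by rw [pow_one]; exact (elemAb_wSub D hK).2 a ha)
    rw [pow_one, pow_three] at h3
    ext v
    have h4 : (ρ a - 1) ((ρ a - 1) v) ∈ fx ρ (wSub D) := by
      rw [h2, fx_zpowers]
      exact DFunLike.congr_fun h3 v
    exact sub_eq_zero.2 (h4 c hc)
  · rintro _ ⟨u, v, rfl⟩ _ ⟨u', v', rfl⟩
    obtain ⟨t, -, ht⟩ := Finset.exists_mem_notMem_of_card_lt_card (s := ({0, -u', u, u + u'} : Finset K))
      (t := Finset.univ) (by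
        have h2 : 3 ^ 3 ≤ 3 ^ (2 * m + 1) := Nat.pow_le_pow_right (by norm_num) (by omega)
        have h3 := Finset.card_le_four (a := (0 : K)) (b := -u') (c := u) (d := u + u')
        rw [Finset.card_univ, hK]
        omega)
    simp only [Finset.mem_insert, Finset.mem_singleton, not_or] at ht
    refine ⟨U 0 t 0, ⟨_, _, rfl⟩, U 0 (u - t) v, ⟨_, _, rfl⟩, by rw [w_mul D, add_sub_cancel, zero_add], ?_, ?_, ?_, ?_⟩
    · exact fun e => ht.1 ((w_mem_zSub D).1 e)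
    · exact fun e => ht.2.2.1 (sub_eq_zero.1 ((w_mem_zSub D).1 e)).symm
    · rw [w_mul D]
      exact fun e => ht.2.1 (eq_neg_of_add_eq_zero_left ((w_mem_zSub D).1 e))
    · rw [w_mul D]
      exact fun e => ht.2.2.2 (by linear_combination -(w_mem_zSub D).1 e)

theorem cub_zSub (D : Data m U h n) (hm : 1 ≤ m) (hK : Fintype.card K = 3 ^ (2 * m + 1))
    (h1 : cod ρ (zSub D) ≤ 2 * (2 * m + 1)) : Cub ρ (zSub D) := by
  obtain ⟨s, hs, s1, -, s2⟩ := Lib.Zsigmondy.exists_primitive (a := 3) (n := 2 * m + 1) (by norm_num) (by omega)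
    (by omega) (by omega)
  have := Fact.mk hs
  obtain ⟨a, ha⟩ := exists_prime_orderOf_dvd_card' (G := Kˣ) s (by
    rw [Nat.card_units, Nat.card_eq_fintype_card, hK]
    exact (s1 _).2 dvd_rfl)
  have ha2 : a ^ 2 ≠ 1 := fun e => by
    rw [← orderOf_dvd_iff_pow_eq_one, ha] at e
    have := Nat.le_of_dvd one_pos ((s1 1).1 e)
    omega
  have hZ := elemAb_of_le (elemAb_wSub D hK) (zSub_le_wSub D)
  have hX : IsPGroup s (zpowers (h a)) := elemAb_isPGroup (elemAb_zpowers (by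
    rw [← h_pow D, ← ha, pow_orderOf_eq_one, D.h_one]))
  have hN : zpowers (h a) ≤ normalizer (zSub D : Set G) :=
    ((zpowers_le).2 (h_mem_bSub D a)).trans (bSub_le_normalizer D fun g hg x hx => b_conj_z D hg hx)
  have hB : Nat.card (zSub D) = 3 ^ (2 * m + 1) := (card_zSub D).trans hK
  have hcj : ∀ v, h a * U 0 0 v * (h a)⁻¹ = U 0 0 ((a : K) ^ (2 * 3 ^ (m + 1) + 3) * v) := fun v => by
    rw [h_conj D, mul_zero]
  have hi : IrrOn (zSub D) (zpowers (h a)) := fun E hE hi => by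
    obtain ⟨r, hr⟩ := ((elemAb_isPGroup hZ).to_le hE).exists_card_eq
    have c1 := TC.Sz.dvd_of_fpf hX hi fun e he h2 => by
      obtain ⟨v, rfl⟩ := hE he
      have h3 := h2 _ (mem_zpowers _)
      rw [hcj] at h3
      by_contra h4
      exact ha2 (by rw [eq_one_of_mul_eq' hK (U_injective D h3).2.2 fun e => h4 (by rw [e, D.U_zero]), one_pow])
    rw [hr, s1] at c1
    rcases Nat.eq_zero_or_pos r with c2 | c2
    · exact Or.inl (card_eq_one.1 (by rw [hr, c2, pow_zero]))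
    · exact Or.inr (eq_of_le_of_card_ge hE (by
        rw [hB, hr]
        exact Nat.pow_le_pow_right (by norm_num) (Nat.le_of_dvd c2 c1)))
  by_contra hn
  have key := layers_of_order (k := ZMod 3) (n := 2 * m + 1) hZ hN le_rfl (fun H' c1 _ _ =>
    ⟨NoLin.mono (noLin_of_irr hN hi ?_) c1,
      OneForm.mono (fun F F' c2 _ => ⟨1, 0, Or.inl one_ne_zero, fun x hx y hy => ?_⟩) c1⟩) hn ?_ hX
    fun d d1 d2 d3 => ?_
  · omega
  · rw [Nat.card_zmod, hB]
    exact lt_of_lt_of_le (by norm_num) (Nat.pow_le_pow_right (by norm_num) (by omega : 2 ≤ 2 * m + 1))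
  · rw [one_mul, zero_mul]
    rcases hi (kerOn (zSub D) (fun (b : zSub D) a => F a b) fun b => c2.add b b.2) (fun _ h => h.1) (fun g hg e he =>
      ⟨(mem_normalizer_iff.1 (hN hg) e).1 he.1, fun b => by
        have c3 := c2.inv g hg e he.1 _ (conj_mem_of_normalizer' (hN hg) b.2)
        rw [show g * (g⁻¹ * b * g) * g⁻¹ = b by group] at c3
        exact c3.trans (he.2 ⟨_, conj_mem_of_normalizer' (hN hg) b.2⟩)⟩) with c3 | c3
    · exfalso
      obtain ⟨ν, hν⟩ : ∃ ν, ν = (a : K) ^ (2 * 3 ^ (m + 1) + 3) := ⟨_, rfl⟩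
      rw [← hν] at hcj
      have hadd : ∀ v w t, F (U 0 0 (v + w)) (U 0 0 t) = F (U 0 0 v) (U 0 0 t) + F (U 0 0 w) (U 0 0 t) :=
        fun v w t => by
          have c4 := c2.add _ ⟨t, rfl⟩ _ ⟨v, rfl⟩ _ ⟨w, rfl⟩
          rwa [w_mul D, add_zero] at c4
      obtain ⟨v, hv, c4⟩ := exists_rad hK (fun v w => F (U 0 0 v) (U 0 0 (ν * w)) - F (U 0 0 (ν * v)) (U 0 0 w))
        (fun v w t => by rw [mul_add, hadd, hadd]; ring)
        fun v w => by
          rw [c2.symm (U 0 0 v) ⟨_, rfl⟩ _ ⟨_, rfl⟩, c2.symm (U 0 0 (ν * v)) ⟨_, rfl⟩ _ ⟨_, rfl⟩]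
          ring
      have hν0 : ν ≠ 0 := hν ▸ pow_ne_zero _ a.ne_zero
      have c5 : U 0 0 (ν * (ν * v) - v) = 1 := mem_bot.1 (c3.le ⟨⟨_, rfl⟩, fun ⟨_, w, e⟩ => by
        subst e
        have c6 := c4 (ν⁻¹ * w)
        have c7 := c2.inv _ (mem_zpowers _) (U 0 0 (ν * v)) ⟨_, rfl⟩ (U 0 0 (ν⁻¹ * w)) ⟨_, rfl⟩
        have c8 := hadd (ν * (ν * v) - v) v w
        rw [hcj, hcj] at c7
        rw [mul_inv_cancel_left₀ hν0] at c6 c7
        rw [sub_add_cancel] at c8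
        show F _ (U 0 0 w) = 0
        linear_combination c7 - c6 - c8⟩)
      rw [← D.U_zero] at c5
      refine ha2 (eq_one_of_mul_eq' hK ?_ hv)
      rw [Units.val_pow_eq_pow_val, ← pow_mul, mul_comm 2, pow_mul, ← hν]
      linear_combination (U_injective D c5).2.2
    · exact (c3.ge hx).2 ⟨y, hy⟩
  · rwa [Nat.card_zmod]
  · rw [Nat.card_zmod] at d3
    exact absurd (Nat.le_of_dvd d1 ((s1 d).1 ((Nat.modEq_iff_dvd' (Nat.one_le_pow _ _ (by norm_num))).1 d3.symm)))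
      d2.not_ge

/-- offenders inside the group -/
theorem core (D : Data m U h n) (hm : 1 ≤ m) (hK : Fintype.card K = 3 ^ (2 * m + 1))
    (h4 : ∀ w ∈ wSub D, w ∉ zSub D → 4 * (2 * m + 1) ≤ cod ρ (zpowers w)) {A : Subgroup G} (hA : Off 3 ρ A) :
    ∃ B, Off 3 ρ B ∧ Cub ρ B := by
  obtain ⟨g, hg⟩ := exists_conj_le D hK hA.1.2
  obtain ⟨B, b1, b2, b3, -⟩ := lattice (by norm_num) (elemAb_wSub D hK) (hA.conj g) (by
    rintro _ ⟨a, ha, rfl⟩
    exact hg a ha)
  refine ⟨B, b2, ?_⟩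
  have h1 := b2.2.2
  rcases cases_of_normal D hK b1 b2.2.1 ((bSub_le_normalizer_wSub D hK).trans b3) with rfl | rfl
  · rw [card_zSub D, hK, ← pow_mul, Nat.pow_le_pow_iff_right (by norm_num)] at h1
    exact cub_zSub D hm hK (by omega)
  · rw [card_wSub D, hK, ← pow_mul, ← pow_mul, Nat.pow_le_pow_iff_right (by norm_num)] at h1
    exact cub_wSub D hm hK fun w hw hz => le_trans (by omega) (h4 w hw hz)

end Rep

end Cfsg.Agent.TwoF.DC.TF.G2
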